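import Cfsg.Agent.H188.RC.ThmA
import Cfsg.Agent.H236.RC.Ident
import Cfsg.Agent.H106.RC.Use
import Cfsg.Agent.H380.RC.Rules

/-!
# S3510, row F, even dimension: the environment of the linear part

* `LR` : the statement of box F1;
* `CV` : a cover by commuting elements of prime order with linear lifts `X i` (similitudes with multiplier `c i`);
* `CV.no_plane`, `CV.box_A` : the two rules.
-/

set_option autoImplicit false
open Cfsg

namespace Cfsg.Agent.H138.RC

open QuadraticMap MulAction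
open Cfsg.Agent.LieClassical.OrthCore Cfsg.Agent.LieClassical.OrthTrans
open Cfsg.Agent.LieClassical.OrthSimple Cfsg.Agent.ClassicalGeometry.OrthSemi
open Cfsg.Agent.ClassicalGeometry.OrthAut1 Cfsg.Agent.H106.RC Cfsg.Agent.H93.RC Cfsg.Agent.H188.RC

variable {F V G Ω : Type} [Field F] [AddCommGroup V] [Module F V] [Group G] [MulAction G Ω]

/-- the statement of box F1 (long root rule) -/
def LR (Q : QuadraticForm F V) (Ω : Type) [MulAction G Ω] (ρ : ↥(E Q) →* G) (p : ℕ) : Prop :=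
  ∀ (κ : Type) [Finite κ] {y : κ → G} {L : κ → Gam Q} {s : κ → ℕ}, (∀ i, Lf ρ (y i) (L i)) →
    (∀ i, (s i).Prime) → (∀ i, s i ≠ p) → (∀ i, y i ^ s i = 1) → (∀ i, y i ≠ 1) →
    (∀ i j, y i * y j = y j * y i) → ∀ {u w : V} (hu : Q u = 0) (_ : Q w = 0) (huw : polar Q u w = 0),
    u ≠ 0 → (∀ a : F, w ≠ a • u) →
    (∀ i, ∀ v ∈ Submodule.span F {u, w}, (L i).1 v ∈ Submodule.span F {u, w}) →
    (∀ ω : Ω, ρ (AutOrth.SemiSim.sg Q u w hu huw) • ω = ω ∨ ∃ i, y i • ω = ω) → False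

/-- a cover by commuting elements of prime order with linear lifts -/
structure CV (Q : QuadraticForm F V) (Ω : Type) [MulAction G Ω] (N : Subgroup G) (ρ : ↥(E Q) →* G) (p : ℕ)
    {ι : Type} (x : ι → G) (M : ι → Gam Q) (X : ι → V ≃ₗ[F] V) (c : ι → F) (r : ι → ℕ) : Prop where
  good : Good Q
  env : Env G Ω N
  rep : Rep Q N ρ
  lr : LR Q Ω ρ p
  ih : IH (Nat.card N)
  prime : ∀ i, (r i).Prime
  pow : ∀ i, x i ^ r i = 1
  ne : ∀ i, x i ≠ 1
  comm : ∀ i j, x i * x j = x j * x i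
  cov : Cov Ω x
  lf : ∀ i, Lf ρ (x i) (M i)
  lin : ∀ i v, (M i).1 v = X i v
  sim : ∀ i v, Q (X i v) = c i * Q v
  commX : ∀ i j, X i * X j = X j * X i

variable {Q : QuadraticForm F V} {N : Subgroup G} {ρ : ↥(E Q) →* G} {p : ℕ} {ι : Type} {x : ι → G}
  {M : ι → Gam Q} {X : ι → V ≃ₗ[F] V} {c : ι → F} {r : ι → ℕ}

namespace CV

theorem nt (h : CV Q Ω N ρ p x M X c r) : Nontrivial V := by
  have := h.good.dim
  exact Module.nontrivial_of_finrank_pos (R := F) (by omega)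

theorem c_ne (h : CV Q Ω N ρ p x M X c r) (i : ι) : c i ≠ 0 := by
  intro h0
  have := h.nt
  obtain ⟨v, hv⟩ := exists_ne (0 : V)
  obtain ⟨w, hw⟩ := h.good.nondeg.exists_polar_ne hv
  apply hw
  have h1 : ∀ a, Q a = 0 := by
    intro a
    have := h.sim i ((X i).symm a)
    rw [h0, zero_mul, LinearEquiv.apply_symm_apply] at this
    exact this
  rw [polar, h1, h1, h1]; simp

theorem polar_X (h : CV Q Ω N ρ p x M X c r) (i : ι) (v w : V) :
    polar Q (X i v) (X i w) = c i * polar Q v w := by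
  rw [polar, polar, ← map_add, h.sim, h.sim, h.sim]; ring

/-- scalar on `W` -/
theorem scalOn_iff (h : CV Q Ω N ρ p x M X c r) (i : ι) (W : Submodule F V) :
    ScalOn (M i) W ↔ ∃ a : F, a ≠ 0 ∧ ∀ v ∈ W, X i v = a • v := by
  unfold ScalOn
  simp only [h.lin]

/-- the lifts are not scalars -/
theorem not_scal [Nonempty Ω] (h : CV Q Ω N ρ p x M X c r) (i : ι) (a : F) : ¬ ∀ v, X i v = a • v := by
  intro hs
  apply h.ne i
  rw [(h.lf i).eq_one_iff h.good h.env h.rep]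
  have ha : a ≠ 0 := by
    rintro rfl
    have := h.nt
    obtain ⟨v, hv⟩ := exists_ne (0 : V)
    have h1 := hs v
    rw [zero_smul, LinearEquiv.map_eq_zero_iff] at h1
    exact hv h1
  exact ⟨a, ha, fun v => by rw [h.lin, hs]⟩

/-- the powers of the lifts are scalars -/
theorem pow_scal (h : CV Q Ω N ρ p x M X c r) (i : ι) : ∃ a : F, a ≠ 0 ∧ ∀ v, (X i ^ r i) v = a • v := by
  obtain ⟨a, ha, h1⟩ := (h.lf i).pow_scal h.good h.rep (h.pow i)
  refine ⟨a, ha, fun v => ?_⟩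
  rw [← h1 v]
  have : ∀ n : ℕ, ∀ v, (M i ^ n).1 v = (X i ^ n) v := by
    intro n
    induction n with
    | zero => intro v; rfl
    | succ n ih =>
      intro v
      rw [pow_succ, pow_succ]
      change (M i ^ n).1 ((M i).1 v) = (X i ^ n) (X i v)
      rw [h.lin, ih]
  exact (this _ v).symm

theorem inv_M (h : CV Q Ω N ρ p x M X c r) (i : ι) {W : Submodule F V} (hW : ∀ v ∈ W, X i v ∈ W) :
    ∀ v ∈ W, (M i).1 v ∈ W := by
  intro v hv
  rw [h.lin]
  exact hW v hv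

/-- **Rule (P2)**: no common invariant totally singular plane for a family of `p'`-elements -/
theorem no_plane [Finite ι] (h : CV Q Ω N ρ p x M X c r) (hp : ∀ i, r i ≠ p) {u w : V} (hu : Q u = 0)
    (hw : Q w = 0) (huw : polar Q u w = 0) (hu0 : u ≠ 0) (hind : ∀ a : F, w ≠ a • u)
    (hL : ∀ i, ∀ v ∈ Submodule.span F {u, w}, X i v ∈ Submodule.span F {u, w}) : False :=
  h.lr ι h.lf h.prime hp h.pow h.ne h.comm hu hw huw hu0 hind (fun i => h.inv_M i (hL i))
    (fun ω => Or.inr (h.cov ω))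

/-- **Rule (LR)**: `p'`-elements `x i`, `i ∈ J`, together with a long root element. -/
theorem no_lr [Finite ι] (h : CV Q Ω N ρ p x M X c r) (J : Set ι) (hp : ∀ i ∈ J, r i ≠ p) {u w : V}
    (hu : Q u = 0) (hw : Q w = 0) (huw : polar Q u w = 0) (hu0 : u ≠ 0) (hind : ∀ a : F, w ≠ a • u)
    (hL : ∀ i ∈ J, ∀ v ∈ Submodule.span F {u, w}, X i v ∈ Submodule.span F {u, w})
    (hcov : ∀ ω : Ω, ρ (AutOrth.SemiSim.sg Q u w hu huw) • ω = ω ∨ ∃ i ∈ J, x i • ω = ω) : False :=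
  h.lr J (y := fun i => x i) (L := fun i => M i) (s := fun i => r i) (fun i => h.lf i) (fun i => h.prime i)
    (fun i => hp i i.2) (fun i => h.pow i) (fun i => h.ne i) (fun i j => h.comm i j) hu hw huw hu0 hind
    (fun i => h.inv_M i (hL i i.2)) (fun ω => by
      rcases hcov ω with h1 | ⟨i, hi, h1⟩
      · exact Or.inl h1
      · exact Or.inr ⟨⟨i, hi⟩, h1⟩)

/-- the members of `N` -/
theorem card_P [Finite F] [FiniteDimensional F V] (h : CV Q Ω N ρ p x M X c r) : Nat.card (P Q) = Nat.card N := by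
  have h1 : Nonempty (P Q ≃* N) := by
    rw [← h.rep.range]
    exact ⟨(QuotientGroup.quotientMulEquivOfEq h.rep.ker.symm).trans (QuotientGroup.quotientKerEquivRange ρ)⟩
  obtain ⟨e⟩ := h1
  exact Nat.card_congr e.toEquiv

/-- induction hypothesis for subspaces -/
theorem rc_sub [Finite F] [FiniteDimensional F V] (h : CV Q Ω N ρ p x M X c r) {W : Submodule F V}
    (hW : Good (Q.comp W.subtype)) (hWt : W ≠ ⊤)
    (hex : ¬ (Nat.card F = 2 ∧ Module.finrank F W = 6 ∧ ∃ U : Submodule F W, (∀ v ∈ U, Q (v : V) = 0) ∧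
      Module.finrank F U = 3)) : RC (P (Q.comp W.subtype)) := by
  have := Cfsg.Agent.H236.RC.finite_P (Q := Q.comp W.subtype)
  obtain ⟨h1, h2, h3, h4⟩ := Cfsg.Agent.H236.RC.box_id hW
  refine h.ih _ h1 h2 h3 (h4.resolve_left ?_) ?_
  · rintro ⟨a, b, U, hU, hU3⟩
    exact hex ⟨a, b, U, fun v hv => hU v hv, hU3⟩
  · rw [← h.card_P]
    exact Cfsg.Agent.H236.RC.box_card h.good W hW hWt

/-- **Rule (A)** -/
theorem box_A [Finite F] [FiniteDimensional F V] [Finite ι] [Finite G] [Nonempty Ω] (h : CV Q Ω N ρ p x M X c r)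
    (W : Submodule F V) (hW : Good (Q.comp W.subtype)) (hWt : W ≠ ⊤)
    (hinv : ∀ i, ∀ v ∈ W, X i v ∈ W) (hne : ∃ i, ∀ a : F, ¬ ∀ v ∈ W, X i v = a • v)
    (hinj : Set.InjOn r {i | ∀ a : F, ¬ ∀ v ∈ W, X i v = a • v})
    (hp : ∀ i, (∃ a : F, ∀ v ∈ W, X i v = a • v) → r i ≠ p)
    (hRC : ¬ (Nat.card F = 2 ∧ Module.finrank F W = 6 ∧ ∃ U : Submodule F W, (∀ v ∈ U, Q (v : V) = 0) ∧
      Module.finrank F U = 3) ∨ {i | ∀ a : F, ¬ ∀ v ∈ W, X i v = a • v}.Subsingleton) : False := by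
  have hs : ∀ i, (∃ a : F, ∀ v ∈ W, X i v = a • v) ↔ ScalOn (M i) W := by
    intro i
    rw [h.scalOn_iff]
    constructor
    · rintro ⟨a, ha⟩
      refine ⟨a, ?_, ha⟩
      rintro rfl
      have h5 := hW.dim
      have : Nontrivial W := Module.nontrivial_of_finrank_pos (R := F) (by omega)
      obtain ⟨v, hv⟩ := exists_ne (0 : W)
      have h1 := ha v v.2
      rw [zero_smul, LinearEquiv.map_eq_zero_iff] at h1
      exact hv (Subtype.ext h1)
    · rintro ⟨a, -, ha⟩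
      exact ⟨a, ha⟩
  have hset : {i | ∀ a : F, ¬ ∀ v ∈ W, X i v = a • v} = {i | ¬ ScalOn (M i) W} := by
    ext i
    simp only [Set.mem_setOf_eq, ← hs]
    push Not
    rfl
  rw [hset] at hinj hRC
  refine box_A_of h.good h.rep h.lr h.lf h.prime h.pow h.ne h.comm h.cov W hW hWt (fun i => h.inv_M i (hinv i))
    ?_ hinj (fun i hi => hp i ((hs i).2 hi)) ?_
  · obtain ⟨i, hi⟩ := hne
    refine ⟨i, fun h1 => ?_⟩
    obtain ⟨a, ha⟩ := (hs i).2 h1
    exact hi a ha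
  · rcases hRC with h1 | h1
    · exact Or.inl (h.rc_sub hW hWt h1)
    · exact Or.inr h1

end CV

end Cfsg.Agent.H138.RC
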