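import Cfsg.Agent.H205.RC.Uni
import Cfsg.Agent.S0752

/-!
# S3510, row F: nondegenerate invariant subspaces of a commuting family of isometries
-/

set_option autoImplicit false
set_option linter.unusedSectionVars false

namespace Cfsg.Agent.H138.RC

open Cfsg QuadraticMap Module
open Cfsg.Agent.LieClassical.OrthCore Cfsg.Agent.LieClassical.OrthTrans Cfsg.Agent.H205.RC

variable {F V : Type*} [Field F] [AddCommGroup V] [Module F V] {Q : QuadraticForm F V}

/-- the orthogonal subspace -/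
def prp (Q : QuadraticForm F V) (W : Submodule F V) : Submodule F V where
  carrier := {v | ∀ w ∈ W, polar Q w v = 0}
  add_mem' := by
    intro a b ha hb w hw
    rw [polar_add_right, ha w hw, hb w hw, add_zero]
  zero_mem' := by
    intro w _
    exact polar_zero_right _ _
  smul_mem' := by
    intro c a ha w hw
    rw [polar_smul_right, ha w hw, smul_zero]

theorem mem_prp {W : Submodule F V} {v : V} : v ∈ prp Q W ↔ ∀ w ∈ W, polar Q w v = 0 := Iff.rfl

theorem mem_prp' {W : Submodule F V} {v : V} : v ∈ prp Q W ↔ ∀ w ∈ W, polar Q v w = 0 := by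
  rw [mem_prp]
  exact forall₂_congr fun w _ => by rw [polar_comm]

/-- a nondegenerate invariant subspace -/
structure Pc {ι : Type*} (Q : QuadraticForm F V) (T : ι → V ≃ₗ[F] V) (W : Submodule F V) : Prop where
  nd : NdOn Q W
  inv : ∀ i, ∀ v ∈ W, T i v ∈ W

/-- `u` is not trivial on `W` -/
def Mv (u : V ≃ₗ[F] V) (W : Submodule F V) : Prop := ∃ v ∈ W, u v ≠ v

theorem not_Mv {u : V ≃ₗ[F] V} {W : Submodule F V} (h : ¬ Mv u W) : ∀ v ∈ W, u v = v := by
  intro v hv
  by_contra h0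
  exact h ⟨v, hv, h0⟩

theorem Mv.mono {u : V ≃ₗ[F] V} {W W' : Submodule F V} (h : Mv u W) (hle : W ≤ W') : Mv u W' := by
  obtain ⟨v, hv, h0⟩ := h
  exact ⟨v, hle hv, h0⟩

theorem Mv.sup {u : V ≃ₗ[F] V} {W W' : Submodule F V} (h : Mv u (W ⊔ W')) : Mv u W ∨ Mv u W' := by
  by_contra hcon
  rw [not_or] at hcon
  obtain ⟨v, hv, h0⟩ := h
  obtain ⟨a, ha, b, hb, rfl⟩ := Submodule.mem_sup.1 hv
  apply h0
  rw [map_add, not_Mv hcon.1 a ha, not_Mv hcon.2 b hb]

theorem exists_minP [FiniteDimensional F V] (P : Submodule F V → Prop) (h : ∃ W, P W) :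
    ∃ W, P W ∧ ∀ W', P W' → finrank F W ≤ finrank F W' := by
  classical
  have hex : ∃ n, ∃ W, P W ∧ finrank F W = n := by
    obtain ⟨W, hW⟩ := h
    exact ⟨_, W, hW, rfl⟩
  obtain ⟨W, hW, hn⟩ := Nat.find_spec hex
  refine ⟨W, hW, fun W' hW' => ?_⟩
  rw [hn]
  exact Nat.find_min' hex ⟨W', hW', rfl⟩

section fin

variable [FiniteDimensional F V]

theorem NdOn.disj {W : Submodule F V} (h : NdOn Q W) : Disjoint W (prp Q W) := by
  rw [Submodule.disjoint_def]
  intro x hx hx'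
  exact h x hx (mem_prp'.1 hx')

theorem NdOn.sup_prp {W : Submodule F V} (h : NdOn Q W) : W ⊔ prp Q W = ⊤ := by
  let φ : V →ₗ[F] Module.Dual F W :=
    { toFun := fun v => (polarBilin Q v).comp W.subtype
      map_add' := fun a b => by ext w; simp
      map_smul' := fun c a => by ext w; simp }
  have hφ : ∀ (v : V) (w : W), φ v w = polar Q v w := fun v w => rfl
  have hinj : Function.Injective (φ.comp W.subtype) := by
    rw [← LinearMap.ker_eq_bot, LinearMap.ker_eq_bot']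
    intro x hx
    apply Subtype.ext
    apply h x x.2
    intro y hy
    have := LinearMap.congr_fun hx ⟨y, hy⟩
    exact this
  have hsurj : Function.Surjective (φ.comp W.subtype) := by
    rw [← LinearMap.range_eq_top]
    apply Submodule.eq_top_of_finrank_eq
    rw [LinearMap.finrank_range_of_inj hinj, Subspace.dual_finrank_eq]
  rw [eq_top_iff]
  intro v _
  obtain ⟨w, hw⟩ := hsurj (φ v)
  have h1 : v - w ∈ prp Q W := by
    rw [mem_prp']
    intro y hy
    have h2 := LinearMap.congr_fun hw ⟨y, hy⟩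
    change polar Q (w : V) y = polar Q v y at h2
    rw [polar_sub_left, h2, sub_self]
  have h3 : v = w + (v - w) := by abel
  rw [h3]
  exact Submodule.add_mem_sup w.2 h1

theorem NdOn.isCompl {W : Submodule F V} (h : NdOn Q W) : IsCompl W (prp Q W) :=
  ⟨NdOn.disj h, codisjoint_iff.2 (NdOn.sup_prp h)⟩

theorem NdOn.finrank_add {W : Submodule F V} (h : NdOn Q W) : finrank F W + finrank F (prp Q W) = finrank F V :=
  Submodule.finrank_add_eq_of_isCompl (NdOn.isCompl h)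

theorem NdOn.prp (hQ : Nondeg Q) {W : Submodule F V} (h : NdOn Q W) : NdOn Q (prp Q W) :=
  NdOn.of_compl hQ (codisjoint_iff.2 (NdOn.sup_prp h)).symm (fun x hx y hy => mem_prp'.1 hx y hy)

theorem NdOn.even (h2 : (2 : F) = 0) {W : Submodule F V} (h : NdOn Q W) : Even (finrank F W) := by
  have hA : LinearMap.BilinForm.IsAlt (polarBilin (Q.comp W.subtype)) := by
    intro v
    show polar (Q.comp W.subtype) v v = 0
    rw [polar_self', h2, zero_mul]
  obtain ⟨m, k, b, -, -, -, hk⟩ := Cfsg.Agent.S0752.result (polarBilin (Q.comp W.subtype)) hA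
  have hk0 : k = 0 := by
    by_contra hne
    exact b.ne_zero (Sum.inr (⟨0, by omega⟩ : Fin k)) (h.nondeg _ fun v => hk _ v)
  subst hk0
  rw [Module.finrank_eq_card_basis b]
  simp

theorem symm_mem {T : V ≃ₗ[F] V} {W : Submodule F V} (h : ∀ v ∈ W, T v ∈ W) : ∀ v ∈ W, T.symm v ∈ W := by
  have h1 : W.map (T : V →ₗ[F] V) = W := by
    apply Submodule.eq_of_le_of_finrank_eq
    · rintro _ ⟨v, hv, rfl⟩
      exact h v hv
    · exact LinearEquiv.finrank_map_eq T W
  intro v hv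
  rw [← h1] at hv
  obtain ⟨w, hw, rfl⟩ := hv
  change T.symm (T w) ∈ W
  rwa [LinearEquiv.symm_apply_apply]

variable {ι : Type*} {T : ι → V ≃ₗ[F] V}

theorem prp_inv {u : V ≃ₗ[F] V} (hu : ∀ v, Q (u v) = Q v) {W : Submodule F V} (h : ∀ v ∈ W, u v ∈ W) :
    ∀ v ∈ prp Q W, u v ∈ prp Q W := by
  intro v hv w hw
  have h1 := polar_iso hu (u.symm w) v
  rw [LinearEquiv.apply_symm_apply] at h1
  rw [h1]
  exact hv _ (symm_mem h w hw)

theorem Pc.prp (hQ : Nondeg Q) (hO : ∀ i v, Q (T i v) = Q v) {W : Submodule F V} (h : Pc Q T W) :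
    Pc Q T (prp Q W) :=
  ⟨NdOn.prp hQ h.nd, fun i => prp_inv (hO i) (h.inv i)⟩

theorem Pc.sup_inf {A B : Submodule F V} (hA : NdOn Q A) (hAB : A ≤ B) :
    A ⊔ (B ⊓ Cfsg.Agent.H138.RC.prp Q A) = B := by
  apply le_antisymm
  · exact sup_le hAB inf_le_left
  · intro v hv
    have h1 : v ∈ A ⊔ Cfsg.Agent.H138.RC.prp Q A := by rw [NdOn.sup_prp hA]; trivial
    obtain ⟨a, ha, b, hb, rfl⟩ := Submodule.mem_sup.1 h1
    refine Submodule.add_mem_sup ha ⟨?_, hb⟩
    have : b = (a + b) - a := by abel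
    rw [this]
    exact B.sub_mem hv (hAB ha)

theorem Pc.finrank_inf {A B : Submodule F V} (hA : NdOn Q A) (hAB : A ≤ B) :
    finrank F A + finrank F ↥(B ⊓ Cfsg.Agent.H138.RC.prp Q A) = finrank F B := by
  have h1 := Submodule.finrank_sup_add_finrank_inf_eq A (B ⊓ Cfsg.Agent.H138.RC.prp Q A)
  rw [Pc.sup_inf hA hAB] at h1
  have h2 : A ⊓ (B ⊓ Cfsg.Agent.H138.RC.prp Q A) = ⊥ := by
    rw [eq_bot_iff]
    rintro x ⟨hx, -, hx'⟩
    exact (Submodule.mem_bot F).2 (hA x hx (mem_prp'.1 hx'))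
  rw [h2, finrank_bot] at h1
  omega

theorem Pc.inf (hO : ∀ i v, Q (T i v) = Q v) {A B : Submodule F V} (hA : Pc Q T A) (hB : Pc Q T B) (hAB : A ≤ B) :
    Pc Q T (B ⊓ Cfsg.Agent.H138.RC.prp Q A) := by
  refine ⟨?_, fun i v hv => ⟨hB.inv i v hv.1, prp_inv (hO i) (hA.inv i) v hv.2⟩⟩
  intro x hx h
  apply hB.nd x hx.1
  intro y hy
  rw [← Pc.sup_inf hA.nd hAB] at hy
  obtain ⟨a, ha, b, hb, rfl⟩ := Submodule.mem_sup.1 hy
  rw [polar_add_right, h b hb, mem_prp'.1 hx.2 a ha, add_zero]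

theorem Pc.sup {A B : Submodule F V} (hA : Pc Q T A) (hB : Pc Q T B) (hAB : B ≤ Cfsg.Agent.H138.RC.prp Q A) :
    Pc Q T (A ⊔ B) := by
  refine ⟨?_, fun i v hv => ?_⟩
  · intro x hx h
    obtain ⟨a, ha, b, hb, rfl⟩ := Submodule.mem_sup.1 hx
    have h1 : a = 0 := by
      apply hA.nd a ha
      intro y hy
      have h2 := h y (Submodule.mem_sup_left hy)
      rwa [polar_add_left, mem_prp'.1 (hAB hb) y hy, add_zero] at h2
    have h3 : b = 0 := by
      apply hB.nd b hb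
      intro y hy
      have h2 := h y (Submodule.mem_sup_right hy)
      rwa [h1, zero_add] at h2
    rw [h1, h3, add_zero]
  · obtain ⟨a, ha, b, hb, rfl⟩ := Submodule.mem_sup.1 hv
    rw [map_add]
    exact Submodule.add_mem_sup (hA.inv i a ha) (hB.inv i b hb)

theorem finrank_sup_of {A B : Submodule F V} (hA : NdOn Q A) (hAB : B ≤ Cfsg.Agent.H138.RC.prp Q A) :
    finrank F ↥(A ⊔ B) = finrank F A + finrank F B := by
  have h1 := Submodule.finrank_sup_add_finrank_inf_eq A B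
  have h2 : A ⊓ B = ⊥ := by
    rw [eq_bot_iff]
    rintro x ⟨hx, hx'⟩
    exact (Submodule.mem_bot F).2 (hA x hx (mem_prp'.1 (hAB hx')))
  rw [h2, finrank_bot] at h1
  omega

/-! ### splitting by an element of order prime to `p` -/

section fix

variable {s : V ≃ₗ[F] V} {r : ℕ}

/-- the fixed part -/
def fxp (s : V ≃ₗ[F] V) (A : Submodule F V) : Submodule F V := A ⊓ LinearMap.ker (nn s)

/-- the commutator part -/
def cmp (s : V ≃ₗ[F] V) (A : Submodule F V) : Submodule F V := A ⊓ LinearMap.range (nn s)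

theorem fxp_sup_cmp (hr : (r : F) ≠ 0) (hsr : s ^ r = 1) {A : Submodule F V} (hA : ∀ v ∈ A, s v ∈ A) :
    fxp s A ⊔ cmp s A = A := by
  apply le_antisymm (sup_le inf_le_left inf_le_left)
  intro v hv
  have hc := fx_cm_compl hr hsr
  have h1 : v ∈ LinearMap.ker (nn s) ⊔ LinearMap.range (nn s) := by rw [hc.sup_eq_top]; trivial
  obtain ⟨k, hk, m, hm, hkm⟩ := Submodule.mem_sup.1 h1
  have hkA : k ∈ A := by
    have h2 : ∀ i : ℕ, (s ^ i) v ∈ A := by
      intro i
      induction i with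
      | zero => exact hv
      | succ i ih => rw [pow_succ']; exact hA _ ih
    have h3 : ∀ i : ℕ, (s ^ i) k = k := by
      intro i
      induction i with
      | zero => rfl
      | succ i ih =>
        rw [pow_succ']
        change s ((s ^ i) k) = k
        rw [ih]
        exact mem_fx.1 hk
    obtain ⟨y, rfl⟩ := hm
    have h4 : ∑ i ∈ Finset.range r, (s ^ i) (nn s y) = 0 := by
      have h5 : ∀ i, (s ^ i) (nn s y) = (s ^ (i + 1)) y - (s ^ i) y := by
        intro i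
        rw [nn_apply, map_sub, pow_succ]
        rfl
      rw [Finset.sum_congr rfl fun i _ => h5 i, Finset.sum_range_sub (fun i => (s ^ i) y), hsr, pow_zero, sub_self]
    have h5 : ∑ i ∈ Finset.range r, (s ^ i) v = (r : F) • k := by
      rw [← hkm]
      simp only [map_add]
      rw [Finset.sum_add_distrib, h4, add_zero, Finset.sum_congr rfl fun i _ => h3 i, Finset.sum_const,
        Finset.card_range, Nat.cast_smul_eq_nsmul]
    have h6 : (r : F) • k ∈ A := by
      rw [← h5]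
      exact A.sum_mem fun i _ => h2 i
    have h7 := A.smul_mem (r : F)⁻¹ h6
    rwa [smul_smul, inv_mul_cancel₀ hr, one_smul] at h7
  rw [← hkm]
  refine Submodule.add_mem_sup ⟨hkA, hk⟩ ⟨?_, hm⟩
  have : m = v - k := by rw [← hkm]; abel
  rw [this]
  exact A.sub_mem hv hkA

theorem fxp_cmp_orth (hs : ∀ v, Q (s v) = Q v) {A : Submodule F V} :
    ∀ x ∈ fxp s A, ∀ y ∈ cmp s A, polar Q x y = 0 := fun x hx y hy => fx_cm_perp hs x hx.2 y hy.2

theorem fxp_inf_cmp (hr : (r : F) ≠ 0) (hsr : s ^ r = 1) {A : Submodule F V} : fxp s A ⊓ cmp s A = ⊥ := by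
  have hc := fx_cm_compl hr hsr
  rw [eq_bot_iff]
  rintro x ⟨hx, hx'⟩
  exact Submodule.disjoint_def.1 hc.disjoint x hx.2 hx'.2 ▸ Submodule.zero_mem _

theorem finrank_fxp_cmp (hr : (r : F) ≠ 0) (hsr : s ^ r = 1) {A : Submodule F V} (hA : ∀ v ∈ A, s v ∈ A) :
    finrank F (fxp s A) + finrank F (cmp s A) = finrank F A := by
  have h1 := Submodule.finrank_sup_add_finrank_inf_eq (fxp s A) (cmp s A)
  rw [fxp_sup_cmp hr hsr hA, fxp_inf_cmp hr hsr, finrank_bot] at h1
  omega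

theorem Pc.fxp (j : ι) (hO : ∀ i v, Q (T i v) = Q v) (hc : ∀ i j v, T i (T j v) = T j (T i v)) (hr : (r : F) ≠ 0)
    (hjr : T j ^ r = 1) {A : Submodule F V} (hA : Pc Q T A) : Pc Q T (fxp (T j) A) := by
  refine ⟨?_, fun i v hv => ⟨hA.inv i v hv.1, ?_⟩⟩
  · intro x hx h
    apply hA.nd x hx.1
    intro y hy
    rw [← fxp_sup_cmp hr hjr (hA.inv j)] at hy
    obtain ⟨a, ha, b, hb, rfl⟩ := Submodule.mem_sup.1 hy
    rw [polar_add_right, h a ha, fxp_cmp_orth (hO j) x hx b hb, add_zero]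
  · show T i v ∈ LinearMap.ker (nn (T j))
    rw [mem_fx, hc, mem_fx.1 hv.2]

theorem Pc.cmp (j : ι) (hO : ∀ i v, Q (T i v) = Q v) (hc : ∀ i j v, T i (T j v) = T j (T i v)) (hr : (r : F) ≠ 0)
    (hjr : T j ^ r = 1) {A : Submodule F V} (hA : Pc Q T A) : Pc Q T (cmp (T j) A) := by
  refine ⟨?_, fun i v hv => ⟨hA.inv i v hv.1, ?_⟩⟩
  · intro x hx h
    apply hA.nd x hx.1
    intro y hy
    rw [← fxp_sup_cmp hr hjr (hA.inv j)] at hy
    obtain ⟨a, ha, b, hb, rfl⟩ := Submodule.mem_sup.1 hy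
    rw [polar_add_right, h b hb, polar_comm, fxp_cmp_orth (hO j) a ha x hx, zero_add]
  · obtain ⟨y, hy⟩ := hv.2
    refine ⟨T i y, ?_⟩
    rw [nn_apply] at hy ⊢
    rw [← hy, map_sub, hc i j]

/-- on a minimal piece with `u ≠ 1` every `T j` is `1` or without fixed vectors -/
theorem fpf_of_min {u : V ≃ₗ[F] V} (j : ι) (hO : ∀ i v, Q (T i v) = Q v)
    (hc : ∀ i j v, T i (T j v) = T j (T i v)) (hr : (r : F) ≠ 0) (hjr : T j ^ r = 1) {A : Submodule F V}
    (hA : Pc Q T A) (hmv : Mv u A) (hmin : ∀ A', A' ≤ A → Pc Q T A' → Mv u A' → finrank F A ≤ finrank F A')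
    (hj : Mv (T j) A) : ∀ v ∈ A, T j v = v → v = 0 := by
  intro v hv hjv
  by_contra hv0
  have hsum := finrank_fxp_cmp hr hjr (hA.inv j)
  have hf : fxp (T j) A ≠ ⊥ := by
    intro h0
    have : v ∈ fxp (T j) A := ⟨hv, mem_fx.2 hjv⟩
    rw [h0, Submodule.mem_bot] at this
    exact hv0 this
  have hcm : cmp (T j) A ≠ ⊥ := by
    intro h0
    obtain ⟨w, hw, hw1⟩ := hj
    apply hw1
    have h1 : nn (T j) w ∈ cmp (T j) A := ⟨A.sub_mem (hA.inv j w hw) hw, ⟨w, rfl⟩⟩
    rw [h0, Submodule.mem_bot, nn_apply, sub_eq_zero] at h1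
    exact h1
  have hf1 : 0 < finrank F (fxp (T j) A) := Nat.pos_of_ne_zero fun h0 => hf (Submodule.finrank_eq_zero.1 h0)
  have hc1 : 0 < finrank F (cmp (T j) A) := Nat.pos_of_ne_zero fun h0 => hcm (Submodule.finrank_eq_zero.1 h0)
  rw [← fxp_sup_cmp hr hjr (hA.inv j)] at hmv
  rcases hmv.sup with h | h
  · have := hmin (fxp (T j) A) inf_le_left (hA.fxp j hO hc hr hjr) h
    omega
  · have := hmin (cmp (T j) A) inf_le_left (hA.cmp j hO hc hr hjr) h
    omega

end fix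

end fin

end Cfsg.Agent.H138.RC
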